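import Cfsg.Agent.H721.SR.Base
import Cfsg.Agent.H217.Odm.Real

/-!
# TEAM SR: a non-real element of prime order from the order of its centralizer (helper306)

`r ∥ |G|`, `|G| = r n`, `|C(x)| = r c`, `c e = n` modulo `r`, `e < r` odd: then `x` is not real. In particular
(`c = 1`) if `|C(x)| = r` and `n % r` is odd.
-/

set_option autoImplicit false

namespace Cfsg.Agent.H306.SR

open Subgroup Cfsg.Agent.H721.SR

/-- a real element of odd order `> 1` has an automizer of even order -/
theorem two_dvd_of_real {G : Type*} [Group G] [Finite G] {x : G} (hx : ¬ x * x = 1) (h : IsConj x x⁻¹) :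
    2 * Nat.card (centralizer ({x} : Set G)) ∣ Nat.card (normalizer ((zpowers x : Subgroup G) : Set G)) := by
  obtain ⟨t, ht⟩ := isConj_iff.1 h
  set P : Subgroup G := zpowers x with hP
  have hCP : centralizer ({x} : Set G) = centralizer (P : Set G) := by
    rw [hP, zpowers_eq_closure, centralizer_closure]
  let φ : normalizer (P : Set G) →* MulAut P := P.normalizerMonoidHom
  have hker : Nat.card φ.ker = Nat.card (centralizer ({x} : Set G)) := by
    rw [show φ.ker = _ from P.normalizerMonoidHom_ker, hCP]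
    exact Nat.card_congr (Subgroup.subgroupOfEquivOfLe (centralizer_le_normalizer _)).toEquiv
  have hcard : Nat.card (normalizer (P : Set G)) = Nat.card (centralizer ({x} : Set G)) * Nat.card φ.range := by
    rw [← hker, ← Subgroup.card_mul_index φ.ker, Subgroup.index_ker]
  have htN : t ∈ normalizer (P : Set G) := by
    have key : ∀ s : G, s * x * s⁻¹ = x⁻¹ → ∀ y ∈ P, s * y * s⁻¹ ∈ P := by
      intro s hs y hy
      obtain ⟨j, rfl⟩ := mem_zpowers_iff.1 hy
      rw [← conj_zpow, hs]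
      exact zpow_mem (inv_mem (mem_zpowers x)) j
    have ht' : t⁻¹ * x * t⁻¹⁻¹ = x⁻¹ := by
      have h1 : x = t⁻¹ * x⁻¹ * t := by rw [← ht]; group
      rw [inv_inv]
      have h2 : (t⁻¹ * x * t)⁻¹ = x := by
        calc (t⁻¹ * x * t)⁻¹ = t⁻¹ * x⁻¹ * t := by group
          _ = x := h1.symm
      rw [← h2, inv_inv]
      congr 2
    rw [mem_normalizer_iff]
    intro y
    refine ⟨key t ht y, fun hy => ?_⟩
    have h1 := key t⁻¹ ht' _ hy
    have h2 : t⁻¹ * (t * y * t⁻¹) * t⁻¹⁻¹ = y := by group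
    rwa [h2] at h1
  have h2 : 2 ∣ Nat.card φ.range := by
    have hne : φ ⟨t, htN⟩ ≠ 1 := by
      intro h1
      have h3 : φ ⟨t, htN⟩ ⟨x, mem_zpowers x⟩ = ⟨x, mem_zpowers x⟩ := by rw [h1]; rfl
      have h4 : t * x * t⁻¹ = x := congrArg Subtype.val h3
      rw [ht] at h4
      apply hx
      rw [inv_eq_iff_mul_eq_one] at h4
      exact h4
    have hsq : φ ⟨t, htN⟩ * φ ⟨t, htN⟩ = 1 := by
      apply MulEquiv.ext
      rintro ⟨y, hy⟩
      obtain ⟨j, rfl⟩ := mem_zpowers_iff.1 hy
      apply Subtype.ext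
      show t * (t * x ^ j * t⁻¹) * t⁻¹ = x ^ j
      rw [← conj_zpow, ht, inv_zpow, ← zpow_neg, ← conj_zpow, ht, inv_zpow, zpow_neg, inv_inv]
    have ho : orderOf (φ ⟨t, htN⟩) = 2 := orderOf_eq_prime (by rw [pow_two]; exact hsq) hne
    rw [← ho]
    exact Subgroup.orderOf_dvd_natCard _ ⟨_, rfl⟩
  rw [hcard, mul_comm 2]
  exact Nat.mul_dvd_mul_left _ h2

variable {G : Type*} [Group G] [Finite G]

/-- **A non-real element from the order of the centralizer.** -/
theorem not_real_of_cent {r n c e : ℕ} (hr : r.Prime) (hr2 : r ≠ 2) (hn : Nat.card G = r * n) (hrn : n % r ≠ 0)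
    {x : G} (hx : orderOf x = r) (hc : Nat.card (centralizer ({x} : Set G)) = r * c) (he : e < r)
    (hmod : (c * e) % r = n % r) (hodd : e % 2 = 1) : ¬ IsConj x x⁻¹ := by
  intro hreal
  have hxx : ¬ x * x = 1 := by
    intro h
    have h1 : orderOf x ∣ 2 := orderOf_dvd_of_pow_eq_one (by rw [pow_two, h])
    rw [hx] at h1
    exact hr2 ((Nat.prime_dvd_prime_iff_eq hr Nat.prime_two).1 h1)
  have h1 := two_dvd_of_real hxx hreal
  have h2 := (Cfsg.Agent.H217.Odm.norm_of_cent hr hn hrn hx hc he hmod).1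
  rw [h2, hc] at h1
  have h3 : r * c * 2 ∣ r * c * e := by
    have e1 : 2 * (r * c) = r * c * 2 := by ring
    have e2 : r * (c * e) = r * c * e := by ring
    rwa [e1, e2] at h1
  have hc0 : 0 < r * c := by rw [← hc]; exact Nat.card_pos
  have h4 := Nat.dvd_of_mul_dvd_mul_left hc0 h3
  omega

theorem nrel_of_cent {r n c e : ℕ} (hr : r.Prime) (hr2 : r ≠ 2) (hn : Nat.card G = r * n) (hrn : n % r ≠ 0)
    (hc : ∀ x : G, orderOf x = r → Nat.card (centralizer ({x} : Set G)) = r * c) (he : e < r)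
    (hmod : (c * e) % r = n % r) (hodd : e % 2 = 1) : NRel G := by
  have hr' : Fact r.Prime := ⟨hr⟩
  obtain ⟨x, hx⟩ := exists_prime_orderOf_dvd_card' (G := G) r (by rw [hn]; exact dvd_mul_right _ _)
  exact ⟨x, not_real_of_cent hr hr2 hn hrn hx (hc x hx) he hmod hodd⟩

/-- the self-centralizing case -/
theorem nrel_of_self_cent {r n : ℕ} (hr : r.Prime) (hr2 : r ≠ 2) (hn : Nat.card G = r * n) (hrn : n % r % 2 = 1)
    (hc : ∀ x : G, orderOf x = r → Nat.card (centralizer ({x} : Set G)) = r) : NRel G :=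
  nrel_of_cent (c := 1) (e := n % r) hr hr2 hn (by intro h; rw [h] at hrn; norm_num at hrn)
    (fun x hx => by rw [hc x hx, mul_one]) (Nat.mod_lt _ hr.pos) (by rw [one_mul, Nat.mod_mod]) hrn

/-- the same with one element -/
theorem nrel_of_self_cent' {r n : ℕ} (hr : r.Prime) (hr2 : r ≠ 2) (hn : Nat.card G = r * n) (hrn : n % r % 2 = 1)
    {x : G} (hx : orderOf x = r) (hc : Nat.card (centralizer ({x} : Set G)) = r) : NRel G :=
  ⟨x, not_real_of_cent (c := 1) (e := n % r) hr hr2 hn (by intro h; rw [h] at hrn; norm_num at hrn) hx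
    (by rw [hc, mul_one]) (Nat.mod_lt _ hr.pos) (by rw [one_mul, Nat.mod_mod]) hrn⟩

end Cfsg.Agent.H306.SR
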