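import Cfsg.Agent.H306.SR.Cent
import Cfsg.Agent.H904.HSIso
import Cfsg.Agent.H904.McLCent
import Cfsg.Agent.H898.J3Cent
import Cfsg.Agent.NotCT.Orders

/-!
# TEAM SR (S4971): `HS`, `McL`, `J3` have non-real elements (helper306)

Orders 11, 11, 19 : self-centralizing, automizers of orders 5, 5, 9.
-/

set_option autoImplicit false

namespace Cfsg.Agent.H306.SR

open Subgroup Cfsg.Agent.H721.SR

universe u

variable {K : Type u} [Group K]

theorem nrel_hs (h : Cfsg.Spor.IsoHS K) : NRel K := by
  have hc := NotCT.Orders.hs h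
  have hfin : Finite K := Nat.finite_of_card_ne_zero (by rw [hc]; norm_num)
  exact nrel_of_self_cent (r := 11) (n := 4032000) (by norm_num) (by norm_num) (by rw [hc]) (by norm_num)
    fun x hx => H904.HSIso.card_eleven h hx

theorem nrel_mcl (h : Cfsg.Spor.IsoMcL K) : NRel K := by
  have hc := NotCT.Orders.mcl h
  have hfin : Finite K := Nat.finite_of_card_ne_zero (by rw [hc]; norm_num)
  refine nrel_of_self_cent (r := 11) (n := 81648000) (by norm_num) (by norm_num) (by rw [hc]) (by norm_num)
    fun x hx => ?_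
  rw [← H904.SylOne.centralizer_zpowers_eq]
  exact (H904.McLCent.eleven h (zpowers x) (by rw [Nat.card_zpowers, hx])).1

theorem nrel_j3 (h : Cfsg.Spor.IsoJ3 K) : NRel K := by
  have hc := NotCT.Orders.j3 h
  have hfin : Finite K := Nat.finite_of_card_ne_zero (by rw [hc]; norm_num)
  exact nrel_of_self_cent (r := 19) (n := 2643840) (by norm_num) (by norm_num) (by rw [hc]) (by norm_num)
    fun x hx => H898.J3Cent.card_nineteen h hx

theorem rr_hs (h : Cfsg.Spor.IsoHS K) : RR K := RR.of_nrel (nrel_hs h)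

theorem rr_mcl (h : Cfsg.Spor.IsoMcL K) : RR K := RR.of_nrel (nrel_mcl h)

theorem rr_j3 (h : Cfsg.Spor.IsoJ3 K) : RR K := RR.of_nrel (nrel_j3 h)

end Cfsg.Agent.H306.SR
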